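import Groth.Agent.Sga2lef.H85.ConnPunct
import Groth.Agent.FlatA.ZMTFactor
import Groth.Agent.Pi1A.NormalEtale
import Mathlib.AlgebraicGeometry.Morphisms.Proper

/-!
# Finite étale covers of the punctured spectrum of a normal complete local domain
-/

set_option autoImplicit false
universe u

open CategoryTheory CategoryTheory.Limits AlgebraicGeometry TopologicalSpace

namespace Groth.Agent.Sga2lef.H85.EtPunct

open PrimeSpectrum IsLocalRing LocCoh

/-- Zariski's main theorem over the spectrum of a ring: a quasi-finite separated scheme is a dense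
open of the spectrum of a finite algebra. -/
theorem exists_factor {A : Type u} [CommRing A] {T : Scheme.{u}} (h : T ⟶ Spec (CommRingCat.of A))
    [LocallyQuasiFinite h] [LocallyOfFiniteType h] [QuasiCompact h] [IsSeparated h] :
    ∃ (B : CommRingCat.{u}) (j : T ⟶ Spec B) (φ : CommRingCat.of A ⟶ B), IsOpenImmersion j ∧
      IsDominant j ∧ φ.hom.Finite ∧ j ≫ Spec.map φ = h := by
  obtain ⟨T', j, π, hT', hj, hjd, hπ, hjπ⟩ :=
    Groth.Agent.FlatA.ZMTFactor.exists_factor_of_isAffine h
  refine ⟨Γ(T', ⊤), j ≫ T'.isoSpec.hom, Spec.preimage (T'.isoSpec.inv ≫ π), inferInstance,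
    inferInstance, ?_, ?_⟩
  · rw [← IsFinite.SpecMap_iff, Spec.map_preimage]
    infer_instance
  · rw [Spec.map_preimage]
    simp [hjπ]

/-- A finite scheme over an open `U` of `Spec A` which is a dense open of `Spec B`, with `B` finite
over `A`, is the whole preimage of `U`. -/
theorem range_eq {A : Type u} [CommRing A] {U : (Spec (CommRingCat.of A)).Opens} {T : Scheme.{u}}
    (g : T ⟶ U) [IsFinite g] {B : CommRingCat.{u}} (j : T ⟶ Spec B) (φ : CommRingCat.of A ⟶ B)
    [IsDominant j] (hj : j ≫ Spec.map φ = g ≫ U.ι) :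
    Set.range j = Spec.map φ ⁻¹' (U : Set (Spec (CommRingCat.of A))) := by
  set V := Spec.map φ ⁻¹ᵁ U with hV
  have hle : Set.range j ⊆ (V : Set (Spec B)) := by
    rintro _ ⟨t, rfl⟩
    change Spec.map φ (j t) ∈ U
    rw [← Scheme.Hom.comp_apply, hj, Scheme.Hom.comp_apply]
    exact (g t).2
  let j₁ : T ⟶ V := IsOpenImmersion.lift V.ι j (by simpa using hle)
  have hj₁ : j₁ ≫ V.ι = j := IsOpenImmersion.lift_fac _ _ _
  have hg : j₁ ≫ (Spec.map φ ∣_ U) = g := by
    rw [← cancel_mono U.ι, Category.assoc, morphismRestrict_ι, reassoc_of% hj₁, hj]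
  have hprop : IsProper (j₁ ≫ (Spec.map φ ∣_ U)) := by
    rw [hg]; infer_instance
  have hsep : IsSeparated (Spec.map φ ∣_ U) := inferInstance
  have hj₁p : IsProper j₁ := IsProper.of_comp j₁ (Spec.map φ ∣_ U)
  have hcl : IsClosed (Set.range j₁) := j₁.isClosedMap.isClosed_range
  have hd : Dense (Set.range j₁) := by
    have h1 : Dense (Set.range j) := j.denseRange
    have h2 : Dense ((V.ι : V → Spec B) ⁻¹' (Set.range j)) := h1.preimage V.ι.isOpenMap
    refine h2.mono ?_
    rintro x ⟨t, ht⟩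
    refine ⟨t, V.ι.isOpenEmbedding.injective ?_⟩
    rw [← ht, ← Scheme.Hom.comp_apply, hj₁]
  apply Set.Subset.antisymm hle
  intro x hx
  have h3 : (⟨x, hx⟩ : V) ∈ Set.range j₁ := by
    rw [hcl.closure_eq.symm, hd.closure_eq]
    trivial
  obtain ⟨t, ht⟩ := h3
  refine ⟨t, ?_⟩
  rw [← hj₁, Scheme.Hom.comp_apply, ht]
  rfl

/-- Connectedness of the punctured linear section of an irreducible finite cover of the punctured
spectrum of a complete local domain. -/
theorem isConnected_preimage {A : Type u} [CommRing A] [IsDomain A] [IsNoetherianRing A]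
    [IsLocalRing A] [IsAdicComplete (maximalIdeal A) A] {k : ℕ}
    (hdim : ((k + 2 : ℕ) : WithBot ℕ∞) ≤ ringKrullDim A) {I : Ideal A} (hI : I ≠ ⊤)
    (hcd : CdLE A I k) {U : (Spec (CommRingCat.of A)).Opens}
    (hU : ∀ x : PrimeSpectrum A, (x : Spec (CommRingCat.of A)) ∈ U ↔ x ≠ closedPoint A)
    {T : Scheme.{u}} [IrreducibleSpace T]
    (g : T ⟶ (U : Scheme.{u}))
    [IsFinite g] (hg : ∃ t : T, ((g ≫ U.ι) t : PrimeSpectrum A) = ⟨⊥, Ideal.isPrime_bot⟩) :
    _root_.IsConnected {t : T | I ≤ ((g ≫ U.ι) t : PrimeSpectrum A).asIdeal} := by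
  obtain ⟨B, j, φ, hj, hjd, hφ, hjφ⟩ := exists_factor (g ≫ U.ι)
  have hrange := range_eq g j φ hjφ
  -- `Spec B` is irreducible
  have hirr : IrreducibleSpace (PrimeSpectrum B) := by
    have h1 : Dense (Set.range j) := j.denseRange
    have h2 : IsIrreducible (Set.range j) := by
      rw [← Set.image_univ]
      exact (IrreducibleSpace.isIrreducible_univ T).image _ j.continuous.continuousOn
    have h3 := h2.closure
    rw [h1.closure_eq] at h3
    have : PreirreducibleSpace (PrimeSpectrum B) := ⟨h3.2⟩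
    exact { toNonempty := h3.1.to_type }
  have hN : (nilradical B).IsPrime := irreducibleSpace_iff_isPrime_nilradical.mp hirr
  let _ : Algebra A B := φ.hom.toAlgebra
  have hBfin : Module.Finite A B := hφ
  let q : B →+* (B ⧸ nilradical B) := Ideal.Quotient.mk _
  have hq : Function.Surjective (PrimeSpectrum.comap q) := by
    rw [← Set.range_eq_univ, range_comap_of_surjective _ _ Ideal.Quotient.mk_surjective,
      Ideal.mk_ker, zeroLocus_nilradical]
  have hcomp : ∀ x : PrimeSpectrum (B ⧸ nilradical B),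
      PrimeSpectrum.comap (algebraMap A (B ⧸ nilradical B)) x =
        (Spec.map φ) (PrimeSpectrum.comap q x) := fun x => rfl
  have hinj : Function.Injective (algebraMap A (B ⧸ nilradical B)) := by
    obtain ⟨t, ht⟩ := hg
    obtain ⟨x, hx⟩ := hq (j t)
    rw [injective_iff_map_eq_zero]
    intro a ha
    have h1 : PrimeSpectrum.comap (algebraMap A (B ⧸ nilradical B)) x = ⟨⊥, Ideal.isPrime_bot⟩ := by
      rw [hcomp, hx, ← Scheme.Hom.comp_apply, hjφ]
      exact ht
    have h2 : a ∈ (PrimeSpectrum.comap (algebraMap A (B ⧸ nilradical B)) x).asIdeal := by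
      change algebraMap A (B ⧸ nilradical B) a ∈ x.asIdeal
      rw [ha]
      exact x.asIdeal.zero_mem
    rw [h1] at h2
    exact h2
  have key := ConnPunct.isConnected_comap_preimage (A := A) (B := B ⧸ nilradical B) hinj hdim hI hcd
  have key2 := key.image (PrimeSpectrum.comap q) (continuous_comap q).continuousOn
  have hS : PrimeSpectrum.comap q '' (PrimeSpectrum.comap (algebraMap A (B ⧸ nilradical B)) ⁻¹'
      (zeroLocus (R := A) (I : Set A) \ {closedPoint A})) =
      j '' {t : T | I ≤ ((g ≫ U.ι) t : PrimeSpectrum A).asIdeal} := by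
    ext y
    constructor
    · rintro ⟨x, hx, rfl⟩
      rw [Set.mem_preimage, hcomp] at hx
      have hy : (PrimeSpectrum.comap q x : PrimeSpectrum B) ∈ Set.range j := by
        rw [hrange]
        exact (hU _).2 hx.2
      obtain ⟨t, ht⟩ := hy
      refine ⟨t, ?_, ht⟩
      rw [Set.mem_ofPred_eq, ← hjφ, Scheme.Hom.comp_apply, ht]
      exact hx.1
    · rintro ⟨t, ht, rfl⟩
      obtain ⟨x, hx⟩ := hq (j t)
      refine ⟨x, ?_, hx⟩
      rw [Set.mem_preimage, hcomp, hx, ← Scheme.Hom.comp_apply, hjφ]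
      exact ⟨ht, (hU _).1 (g t).2⟩
  rw [hS] at key2
  exact ⟨key2.1.of_image, (j.isOpenEmbedding.isInducing.isPreconnected_image).mp key2.2⟩

end Groth.Agent.Sga2lef.H85.EtPunct
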