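import Groth.Agent.FormalA.ConnCd
import Groth.Agent.Ega4C.CplFinite
import Groth.Agent.FlatA.DimFin

/-!
# Connectedness of punctured linear sections in finite domains over a complete local ring
-/

set_option autoImplicit false
universe u

namespace Groth.Agent.Sga2lef.H85.ConnPunct

open PrimeSpectrum IsLocalRing LocCoh

/-- In a complete Noetherian local domain of dimension `≥ k + 2`, the punctured closed subset
defined by a proper ideal of cohomological dimension `≤ k` is connected. -/
theorem isConnected_zeroLocus_diff {B : Type u} [CommRing B] [IsNoetherianRing B] [IsLocalRing B]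
    [IsDomain B] [IsAdicComplete (maximalIdeal B) B] {k : ℕ}
    (hdim : ((k + 2 : ℕ) : WithBot ℕ∞) ≤ ringKrullDim B)
    {I : Ideal B} (hI : I ≠ ⊤) (h : CdLE B I k) :
    _root_.IsConnected (zeroLocus (R := B) (I : Set B) \ {closedPoint B}) := by
  have hz : zeroLocus (R := B) ((maximalIdeal B : Ideal B) : Set B) = {closedPoint B} :=
    zeroLocus_eq_singleton (maximalIdeal B)
  have h0 : ringKrullDim (B ⧸ maximalIdeal B) = 0 :=
    ringKrullDim_eq_zero_of_isField
      ((Ideal.Quotient.maximal_ideal_iff_isField_quotient _).mp inferInstance)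
  have h1 := Groth.Agent.FormalA.ConnCd.isConnected_of_domain hI h (maximalIdeal B)
    (by
      rw [hz, Set.singleton_subset_iff]
      exact le_maximalIdeal hI)
    (by
      rw [h0, zero_add]
      refine lt_of_lt_of_le ?_ hdim
      exact_mod_cast Nat.lt_succ_self (k + 1))
  rwa [hz] at h1

/-- The version for an ideal generated by `k` elements of the base of a finite extension. -/
theorem isConnected_comap_preimage {A B : Type u} [CommRing A] [IsNoetherianRing A] [IsLocalRing A]
    [IsAdicComplete (maximalIdeal A) A] [CommRing B] [IsDomain B] [Algebra A B] [Module.Finite A B]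
    (hinj : Function.Injective (algebraMap A B)) {k : ℕ}
    (hdim : ((k + 2 : ℕ) : WithBot ℕ∞) ≤ ringKrullDim A) {I : Ideal A} (hI : I ≠ ⊤)
    (h : CdLE A I k) :
    _root_.IsConnected (PrimeSpectrum.comap (algebraMap A B) ⁻¹'
      (zeroLocus (R := A) (I : Set A) \ {closedPoint A})) := by
  have := Groth.Agent.Ega4C.CplFinite.isLocalRing_of_finite A B
  have := Groth.Agent.Ega4C.CplFinite.isAdicComplete_of_finite A B
  have : IsNoetherianRing B := IsNoetherianRing.of_finite A B
  have hB := Groth.Agent.FlatA.DimFin.ringKrullDim_eq_of_isIntegral_of_injective A B hinj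
  have hcd : CdLE B (I.map (algebraMap A B)) k := (Groth.Agent.S0379.result A B I k).1 h
  have hm : (maximalIdeal B).comap (algebraMap A B) = maximalIdeal A :=
    IsLocalRing.eq_maximalIdeal (Ideal.isMaximal_comap_of_isIntegral_of_isMaximal _)
  have hne : I.map (algebraMap A B) ≠ ⊤ := by
    intro h
    have h1 : I.map (algebraMap A B) ≤ maximalIdeal B := by
      rw [Ideal.map_le_iff_le_comap, hm]
      exact le_maximalIdeal hI
    rw [h, top_le_iff] at h1
    exact (inferInstance : (maximalIdeal B).IsPrime).ne_top h1
  have key := isConnected_zeroLocus_diff (by rwa [hB]) hne hcd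
  convert key using 1
  rw [Set.preimage_sdiff, preimage_comap_zeroLocus, Ideal.map, zeroLocus_span]
  congr 1
  ext x
  simp only [Set.mem_preimage, Set.mem_singleton_iff]
  constructor
  · intro hx
    have h1 : (x.asIdeal.comap (algebraMap A B)).IsMaximal := by
      have : x.asIdeal.comap (algebraMap A B) = maximalIdeal A :=
        congrArg PrimeSpectrum.asIdeal hx
      rw [this]
      infer_instance
    have h2 : x.asIdeal.IsMaximal := Ideal.isMaximal_of_isIntegral_of_isMaximal_comap _ h1
    exact PrimeSpectrum.ext (IsLocalRing.eq_maximalIdeal h2)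
  · rintro rfl
    exact PrimeSpectrum.ext hm

end Groth.Agent.Sga2lef.H85.ConnPunct
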