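import Groth.Agent.Sga2lef.H85.ConnPunct
import Groth.Agent.S1797

/-!
# Connectedness of the punctured closed fibre of a local homomorphism to a normal excellent ring
-/

set_option autoImplicit false
universe u

namespace Groth.Agent.Sga2lef.H85.UnibLocal

open PrimeSpectrum IsLocalRing LocCoh EGA4

/-- In a Noetherian local domain `C` with `Cpl C` a domain, of dimension `≥ k + 2`, the punctured
closed subset defined by an ideal generated up to radical by `k` elements is connected. -/
theorem isConnected_zeroLocus_diff_of_cpl {C : Type u} [CommRing C] [IsNoetherianRing C]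
    [IsLocalRing C] [IsDomain (Cpl C)] {k : ℕ}
    (hdim : ((k + 2 : ℕ) : WithBot ℕ∞) ≤ ringKrullDim C)
    {I : Ideal C} (hI : I ≠ ⊤) (h : CdLE C I k) :
    _root_.IsConnected (zeroLocus (R := C) (I : Set C) \ {closedPoint C}) := by
  have hN : IsNoetherianRing (Cpl C) := Groth.Agent.Ega4A.CplQuot.isNoetherianRing_cpl C
  have hL : IsLocalRing (Cpl C) := Groth.Agent.Ega4A.CplQuot.isLocalRing_cpl C
  have hff : Module.FaithfullyFlat C (Cpl C) := Groth.Agent.Ega4A.CplQuot.faithfullyFlat_cpl C
  have hm : (maximalIdeal C).map (algebraMap C (Cpl C)) = maximalIdeal (Cpl C) :=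
    AdicCompletion.maximalIdeal_eq_map.symm
  have hac : IsAdicComplete (maximalIdeal (Cpl C)) (Cpl C) := inferInstance
  have hcd : CdLE (Cpl C) (I.map (algebraMap C (Cpl C))) k := (Groth.Agent.S0379.result C (Cpl C) I k).1 h
  have hlh : IsLocalHom (algebraMap C (Cpl C)) := Groth.Agent.Ega4A.CplQuot.isLocalHom_cpl C
  have hmc : (maximalIdeal (Cpl C)).comap (algebraMap C (Cpl C)) = maximalIdeal C :=
    ((IsLocalRing.local_hom_TFAE (algebraMap C (Cpl C))).out 0 4).1 hlh
  have hne : I.map (algebraMap C (Cpl C)) ≠ ⊤ := by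
    intro h
    have h1 : I.map (algebraMap C (Cpl C)) ≤ maximalIdeal (Cpl C) := by
      rw [Ideal.map_le_iff_le_comap, hmc]
      exact le_maximalIdeal hI
    rw [h, top_le_iff] at h1
    exact (inferInstance : (maximalIdeal (Cpl C)).IsPrime).ne_top h1
  have key := ConnPunct.isConnected_zeroLocus_diff (B := Cpl C)
    (by rwa [Groth.Agent.Ega4A.CplQuot.ringKrullDim_cpl C]) hne hcd
  have key2 := key.image (comap (algebraMap C (Cpl C))) (continuous_comap _).continuousOn
  have hsurj : Function.Surjective (comap (algebraMap C (Cpl C))) :=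
    PrimeSpectrum.comap_surjective_of_faithfullyFlat
  convert key2 using 1
  ext x
  constructor
  · rintro ⟨hx1, hx2⟩
    obtain ⟨y, rfl⟩ := hsurj x
    refine ⟨y, ⟨?_, ?_⟩, rfl⟩
    · rw [Ideal.map, zeroLocus_span, ← preimage_comap_zeroLocus]
      exact hx1
    · rintro rfl
      exact hx2 (PrimeSpectrum.ext hmc)
  · rintro ⟨y, ⟨hy1, hy2⟩, rfl⟩
    rw [Ideal.map, zeroLocus_span, ← preimage_comap_zeroLocus] at hy1
    refine ⟨hy1, fun h => hy2 ?_⟩
    have h1 : y.asIdeal.comap (algebraMap C (Cpl C)) = maximalIdeal C :=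
      congrArg PrimeSpectrum.asIdeal h
    have h2 : maximalIdeal (Cpl C) ≤ y.asIdeal := by
      rw [← hm, Ideal.map_le_iff_le_comap, h1]
    exact PrimeSpectrum.ext (le_antisymm (le_maximalIdeal y.2.ne_top) h2)

/-- Let `B → C` be a local homomorphism of Noetherian local rings with `dim C ≥ dim B + 2` and
such that the completion of `C` is a domain (e.g. `C` excellent and normal). Then the fibre of
`Spec C → Spec B` over the closed point, with the closed point removed, is connected. -/
theorem isConnected_fibre_diff {B C : Type u} [CommRing B] [IsNoetherianRing B] [IsLocalRing B]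
    [CommRing C] [IsNoetherianRing C] [IsLocalRing C] [IsDomain (Cpl C)] [Algebra B C]
    [IsLocalHom (algebraMap B C)] (hdim : ringKrullDim B + 2 ≤ ringKrullDim C) :
    _root_.IsConnected ({x : PrimeSpectrum C | comap (algebraMap B C) x = closedPoint B} \
      {closedPoint C}) := by
  classical
  obtain ⟨d, hd⟩ := Groth.Agent.FormalA.ConnDim.exists_nat_ringKrullDim B
  obtain ⟨s, hs, hc, hr⟩ := Groth.Agent.FormalA.ConnDim.exists_parameters (⊥ : Ideal B) bot_ne_top
  rw [bot_sup_eq] at hr
  have hcard : s.card ≤ d := by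
    have h1 : ringKrullDim (B ⧸ (⊥ : Ideal B)) = ringKrullDim B :=
      ringKrullDim_eq_of_ringEquiv (RingEquiv.quotientBot B)
    rw [h1, hd] at hc
    exact_mod_cast hc.le
  have hrad : (Ideal.span ((s.image (algebraMap B C) : Finset C) : Set C)).radical =
      ((maximalIdeal B).map (algebraMap B C)).radical := by
    rw [Finset.coe_image, ← Ideal.map_span, ← hr]
    apply le_antisymm
    · exact Ideal.radical_mono (Ideal.map_mono Ideal.le_radical)
    · rw [Ideal.radical_le_radical_iff]
      exact Ideal.map_radical_le _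
  have hcd : CdLE C ((maximalIdeal B).map (algebraMap B C)) d := by
    refine Groth.Agent.FormalA.ConnCd.cdLE_of_radical_eq hrad ?_
    intro M _ _ i hi
    exact Groth.Agent.S0326.result C (s.image (algebraMap B C)) M i
      (lt_of_le_of_lt (Finset.card_image_le.trans hcard) hi)
  have hne : (maximalIdeal B).map (algebraMap B C) ≠ ⊤ := by
    intro h
    have hlh : IsLocalHom (algebraMap B C) := inferInstance
    have hmc : (maximalIdeal C).comap (algebraMap B C) = maximalIdeal B :=
      ((IsLocalRing.local_hom_TFAE (algebraMap B C)).out 0 4).1 hlh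
    have h1 : (maximalIdeal B).map (algebraMap B C) ≤ maximalIdeal C := by
      rw [Ideal.map_le_iff_le_comap, hmc]
    rw [h, top_le_iff] at h1
    exact (inferInstance : (maximalIdeal C).IsPrime).ne_top h1
  have key := isConnected_zeroLocus_diff_of_cpl (C := C) (k := d)
    (by rw [hd] at hdim; exact_mod_cast hdim) hne hcd
  convert key using 2
  ext x
  rw [Ideal.map, zeroLocus_span, ← preimage_comap_zeroLocus]
  have hz : zeroLocus (R := B) ((maximalIdeal B : Ideal B) : Set B) = {closedPoint B} :=
    zeroLocus_eq_singleton (maximalIdeal B)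
  rw [Set.mem_preimage, hz]
  rfl

end Groth.Agent.Sga2lef.H85.UnibLocal
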