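import Groth.Agent.Sga2lef.H85.SepInj
import Groth.Agent.S0388
import Mathlib.AlgebraicGeometry.Fiber
import Mathlib.AlgebraicGeometry.FunctionField
import Mathlib.AlgebraicGeometry.ResidueField
import Mathlib.AlgebraicGeometry.Morphisms.Proper

/-!
# Zariski's connectedness theorem over a normal base

`f : W ⟶ Spec C` proper, dominant, `W` integral, `C` an integrally closed domain whose fraction
field is separably closed in the residue field of `W` at its generic point: the fibres of `f` are
connected.
-/

set_option autoImplicit false
universe u

open CategoryTheory AlgebraicGeometry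

namespace Groth.Agent.Sga2lef.H85.ZarConn

variable {C : Type u} [CommRing C] {W : Scheme.{u}}

/-- The ring homomorphism of a morphism to an affine scheme. -/
noncomputable def toRing (f : W ⟶ Spec (CommRingCat.of C)) : C →+* Γ(W, ⊤) :=
  ((Scheme.ΓSpecIso (CommRingCat.of C)).inv ≫ f.appTop).hom

theorem eq_toSpecΓ (f : W ⟶ Spec (CommRingCat.of C)) :
    f = W.toSpecΓ ≫ Spec.map (CommRingCat.ofHom (toRing f)) := by
  rw [toRing, CommRingCat.ofHom_hom, Spec.map_comp, ← Category.assoc,
    ← Scheme.toSpecΓ_naturality, Category.assoc, ← SpecMap_ΓSpecIso_hom, ← Spec.map_comp,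
    Iso.inv_hom_id, Spec.map_id, Category.comp_id]

/-- Evaluation of global sections at a point. -/
noncomputable def evalTop (W : Scheme.{u}) (x : W) : Γ(W, ⊤) →+* W.residueField x :=
  (W.presheaf.germ ⊤ x trivial ≫ W.residue x).hom

theorem fromSpecResidueField_toSpecΓ (x : W) :
    W.fromSpecResidueField x ≫ W.toSpecΓ = Spec.map (CommRingCat.ofHom (evalTop W x)) := by
  rw [evalTop, CommRingCat.ofHom_hom, Spec.map_comp, Scheme.fromSpecResidueField, Category.assoc]
  congr 1
  exact Scheme.fromSpecStalk_toSpecΓ W x

theorem evalTop_injective [IsIntegral W] : Function.Injective (evalTop W (genericPoint W)) := by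
  rw [evalTop, CommRingCat.hom_comp, RingHom.coe_comp]
  refine Function.Injective.comp ?_ (germ_injective_of_isIntegral W (U := ⊤) (genericPoint W) trivial)
  exact (W.residue (genericPoint W)).hom.injective

/-- If `K = Frac C` is separably closed in `κ(W)`, any factorization `W ⟶ N ⟶ Spec C` with `N` affine
and integral over `C` and `Γ(N) → Γ(W)` injective has `N ⟶ Spec C` injective. -/
theorem injective_of_factor [IsDomain C] [IsIntegrallyClosed C] [IsIntegral W] {N : Scheme.{u}}
    [IsAffine N] (p : W ⟶ N) (h : N ⟶ Spec (CommRingCat.of C)) [IsIntegralHom h]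
    (hp : Function.Injective p.appTop.hom)
    (K : Type u) [Field K] [Algebra C K] [IsFractionRing C K]
    [Algebra K (W.residueField (genericPoint W))]
    (hcomp : W.fromSpecResidueField (genericPoint W) ≫ p ≫ h = Spec.map (CommRingCat.ofHom
      ((algebraMap K (W.residueField (genericPoint W))).comp (algebraMap C K))))
    (hsep : ∀ b : W.residueField (genericPoint W), IsSeparable K b →
      b ∈ (algebraMap K (W.residueField (genericPoint W))).range) :
    Function.Injective h := by
  let _ : Algebra C Γ(N, ⊤) := (toRing h).toAlgebra
  have hint : Algebra.IsIntegral C Γ(N, ⊤) := by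
    have h1 : h.appTop.hom.IsIntegral := h.isIntegral_app ⊤ (isAffineOpen_top _)
    have h2 : (toRing h).IsIntegral := by
      rw [toRing, CommRingCat.hom_comp]
      refine RingHom.IsIntegral.trans _ _ ?_ h1
      exact RingHom.isIntegral_of_surjective _
        (Scheme.ΓSpecIso (CommRingCat.of C)).symm.commRingCatIsoToRingEquiv.surjective
    exact ⟨h2⟩
  let ψ : Γ(N, ⊤) →+* W.residueField (genericPoint W) :=
    (evalTop W (genericPoint W)).comp p.appTop.hom
  have hψ : Function.Injective ψ := evalTop_injective.comp hp
  have hψ' : ψ.comp (toRing h) =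
      (algebraMap K (W.residueField (genericPoint W))).comp (algebraMap C K) := by
    have h1 : Spec.map (CommRingCat.ofHom (ψ.comp (toRing h))) = Spec.map (CommRingCat.ofHom
      ((algebraMap K (W.residueField (genericPoint W))).comp (algebraMap C K))) := by
      rw [← hcomp]
      conv_rhs => rw [eq_toSpecΓ h, Scheme.toSpecΓ_naturality_assoc, ← Category.assoc,
        fromSpecResidueField_toSpecΓ]
      rw [← Spec.map_comp, ← Spec.map_comp]
      rfl
    exact congrArg CommRingCat.Hom.hom (Spec.map_injective h1)
  have key := SepInj.comap_injective (C := C) (D := Γ(N, ⊤)) (K := K)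
    (L := W.residueField (genericPoint W)) ψ hψ (fun c => RingHom.congr_fun hψ' c) hsep
  have h2 : (h : N → Spec (CommRingCat.of C)) =
      (Spec.map (CommRingCat.ofHom (toRing h))) ∘ N.toSpecΓ := by
    ext x
    conv_lhs => rw [eq_toSpecΓ h]
    rfl
  rw [h2]
  refine Function.Injective.comp (fun a b hab => key hab) ?_
  have : IsIso N.toSpecΓ := inferInstance
  exact N.toSpecΓ.homeomorph.injective

/-- **Zariski's connectedness theorem** over a normal affine base. -/
theorem isConnected_preimage [IsDomain C] [IsIntegrallyClosed C] [IsIntegral W]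
    (f : W ⟶ Spec (CommRingCat.of C)) [IsProper f] [Surjective f]
    (K : Type u) [Field K] [Algebra C K] [IsFractionRing C K]
    [Algebra K (W.residueField (genericPoint W))]
    (hcomp : W.fromSpecResidueField (genericPoint W) ≫ f = Spec.map (CommRingCat.ofHom
      ((algebraMap K (W.residueField (genericPoint W))).comp (algebraMap C K))))
    (hsep : ∀ b : W.residueField (genericPoint W), IsSeparable K b →
      b ∈ (algebraMap K (W.residueField (genericPoint W))).range)
    (y : Spec (CommRingCat.of C)) : _root_.IsConnected (f ⁻¹' {y}) := by
  obtain ⟨h1, h2⟩ := S0388.result f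
  have haff : IsAffine f.normalization := isAffine_of_isAffineHom f.fromNormalization
  have hp : Function.Injective f.toNormalization.appTop.hom := by
    have := h2 ⊤
    exact (ConcreteCategory.bijective_of_isIso (f.toNormalization.app ⊤)).1
  have hinj := injective_of_factor f.toNormalization f.fromNormalization hp K
    (by rw [f.toNormalization_fromNormalization]; exact hcomp) hsep
  obtain ⟨w, hw⟩ := f.surjective y
  have hcomp' : ∀ x : W, f.fromNormalization (f.toNormalization x) = f x := fun x => by
    rw [← Scheme.Hom.comp_apply, f.toNormalization_fromNormalization]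
  have : f ⁻¹' {y} = f.toNormalization ⁻¹' {f.toNormalization w} := by
    ext x
    simp only [Set.mem_preimage, Set.mem_singleton_iff]
    constructor
    · intro hx
      apply hinj
      rw [hcomp', hcomp', hx, hw]
    · intro hx
      rw [← hcomp', hx, hcomp', hw]
  rw [this]
  exact f.toNormalization.isConnected_preimage_singleton _

theorem connectedSpace_fiber [IsDomain C] [IsIntegrallyClosed C] [IsIntegral W]
    (f : W ⟶ Spec (CommRingCat.of C)) [IsProper f] [Surjective f]
    (K : Type u) [Field K] [Algebra C K] [IsFractionRing C K]
    [Algebra K (W.residueField (genericPoint W))]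
    (hcomp : W.fromSpecResidueField (genericPoint W) ≫ f = Spec.map (CommRingCat.ofHom
      ((algebraMap K (W.residueField (genericPoint W))).comp (algebraMap C K))))
    (hsep : ∀ b : W.residueField (genericPoint W), IsSeparable K b →
      b ∈ (algebraMap K (W.residueField (genericPoint W))).range)
    (y : Spec (CommRingCat.of C)) : ConnectedSpace (f.fiber y) := by
  have h := isConnected_preimage f K hcomp hsep y
  have h2 : ConnectedSpace (f ⁻¹' {y}) := isConnected_iff_connectedSpace.1 h
  exact (f.fiberHomeo y).symm.surjective.connectedSpace (f.fiberHomeo y).symm.continuous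

end Groth.Agent.Sga2lef.H85.ZarConn
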